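import Mathlib

/-!
Facts about the alternating groups of degree five and eight.
-/

set_option autoImplicit false
set_option linter.style.haveILetI false
set_option linter.unusedSectionVars false

namespace CfsgLib.EightType55

open Equiv

abbrev A5 := ↥(alternatingGroup (Fin 5))

def s1 : A5 := ⟨swap 0 1 * swap 2 3, Perm.mem_alternatingGroup.mpr (by decide)⟩
def s2 : A5 := ⟨swap 0 2 * swap 1 3, Perm.mem_alternatingGroup.mpr (by decide)⟩
def s3 : A5 := ⟨swap 0 3 * swap 1 2, Perm.mem_alternatingGroup.mpr (by decide)⟩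
def t3 : A5 := ⟨swap 0 1 * swap 1 2, Perm.mem_alternatingGroup.mpr (by decide)⟩
def c5 : A5 := ⟨swap 0 1 * swap 1 2 * swap 2 3 * swap 3 4, Perm.mem_alternatingGroup.mpr (by decide)⟩

/-- The four-group fixing `4`. -/
def fourV : Subgroup A5 where
  carrier := {x | x = 1 ∨ x = s1 ∨ x = s2 ∨ x = s3}
  one_mem' := Or.inl rfl
  mul_mem' := by
    rintro a b (rfl | rfl | rfl | rfl) (rfl | rfl | rfl | rfl) <;> simp only [Set.mem_ofPred_eq] <;>
      decide
  inv_mem' := by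
    rintro a (rfl | rfl | rfl | rfl) <;> simp only [Set.mem_ofPred_eq] <;> decide

theorem mem_fourV {x : A5} : x ∈ fourV ↔ x = 1 ∨ x = s1 ∨ x = s2 ∨ x = s3 := Iff.rfl

theorem five_facts :
    (s1 ≠ 1 ∧ s2 ≠ 1 ∧ s3 ≠ 1 ∧ s1 ≠ s2 ∧ s1 ≠ s3 ∧ s2 ≠ s3) ∧
    (t3 * s1 * t3⁻¹ ≠ s1 ∧ t3 * s1 * t3⁻¹ ∈ ({s2, s3} : Finset A5)) ∧
    (t3 * s2 * t3⁻¹ ∈ ({s1, s3} : Finset A5) ∧ t3 * s3 * t3⁻¹ ∈ ({s1, s2} : Finset A5)) ∧
    (s1 * s2 = s3 ∧ t3 * t3 * t3 = 1 ∧ c5 ≠ 1 ∧ c5 * c5 * c5 * c5 * c5 = 1) := by decide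

theorem card_A5 : Nat.card A5 = 60 := by
  rw [nat_card_alternatingGroup]; simp [Nat.factorial]

theorem sq_of_four : ∀ x : A5, x * x * (x * x) = 1 → x * x = 1 := by decide +kernel

theorem involution_conj : ∀ x : A5, x * x = 1 → x ≠ 1 → ∃ g : A5, g * x * g⁻¹ = s1 := by
  decide +kernel

theorem fourV_normalizer : ∀ g x : A5, g * s1 * g⁻¹ = x → (x = s1 ∨ x = s2 ∨ x = s3) →
    (g * s2 * g⁻¹ = s1 ∨ g * s2 * g⁻¹ = s2 ∨ g * s2 * g⁻¹ = s3) →
    ∃ i : Fin 3, (t3 ^ (i : ℕ))⁻¹ * g = 1 ∨ (t3 ^ (i : ℕ))⁻¹ * g = s1 ∨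
      (t3 ^ (i : ℕ))⁻¹ * g = s2 ∨ (t3 ^ (i : ℕ))⁻¹ * g = s3 := by
  decide +kernel

/-- A subgroup of index less than five is the whole group. -/
theorem eq_top_of_index_lt {H : Subgroup A5} (h : H.index < 5) : H = ⊤ := by
  rcases (Subgroup.normalCore_normal H).eq_bot_or_eq_top with hb | ht
  · exfalso
    have h1 := Subgroup.index_ker (MulAction.toPermHom A5 (A5 ⧸ H))
    rw [← Subgroup.normalCore_eq_ker, hb, Subgroup.index_bot, card_A5] at h1
    have h2 : Nat.card ↥(MulAction.toPermHom A5 (A5 ⧸ H)).range ≤ Nat.factorial H.index := by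
      refine (Subgroup.card_le_card_group _).trans ?_
      rw [Nat.card_perm, Subgroup.index_eq_card]
    have h3 : Nat.factorial H.index ≤ 24 := Nat.factorial_le (show H.index ≤ 4 by omega)
    omega
  · exact top_le_iff.mp (ht ▸ Subgroup.normalCore_le H)

/-! ### The centre of a Sylow 2-subgroup of the alternating group of degree eight -/

abbrev A8 := ↥(alternatingGroup (Fin 8))

/-- The permutations respecting the pairs and the halves. -/
def Pres (σ : Perm (Fin 8)) : Prop :=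
  ∀ x y : Fin 8, (x.val / 2 = y.val / 2 → (σ x).val / 2 = (σ y).val / 2) ∧
    (x.val / 4 = y.val / 4 → (σ x).val / 4 = (σ y).val / 4)

instance (σ : Perm (Fin 8)) : Decidable (Pres σ) := by unfold Pres; infer_instance

theorem pres_pow {σ : Perm (Fin 8)} (h : Pres σ) : ∀ n : ℕ, Pres (σ ^ n)
  | 0 => fun x y => ⟨fun e => by simpa using e, fun e => by simpa using e⟩
  | n + 1 => fun x y => by
      simp only [pow_succ', Perm.mul_apply]
      exact ⟨fun e => (h _ _).1 ((pres_pow h n x y).1 e), fun e => (h _ _).2 ((pres_pow h n x y).2 e)⟩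

def blockGroup : Subgroup A8 where
  carrier := {σ | Pres (σ : Perm (Fin 8))}
  one_mem' := fun x y => ⟨fun e => by simpa using e, fun e => by simpa using e⟩
  mul_mem' := fun {a b} ha hb x y =>
    ⟨fun e => (ha _ _).1 ((hb x y).1 e), fun e => (ha _ _).2 ((hb x y).2 e)⟩
  inv_mem' := fun {a} ha => by
    have he : a⁻¹ = a ^ (orderOf a - 1) := by
      rw [inv_eq_iff_mul_eq_one, ← pow_succ', Nat.sub_add_cancel (orderOf_pos a),
        pow_orderOf_eq_one]
    show Pres ((a⁻¹ : A8) : Perm (Fin 8))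
    rw [he, SubgroupClass.coe_pow]
    exact pres_pow ha _

theorem isPGroup_blockGroup : IsPGroup 2 blockGroup := by
  intro a
  refine ⟨3, Subtype.ext (Subtype.ext (Equiv.ext fun x => ?_))⟩
  set σ : Perm (Fin 8) := ((a : A8) : Perm (Fin 8)) with hσ
  have ha : Pres σ := a.2
  have hinv : Pres σ⁻¹ := (blockGroup.inv_mem a.2 : Pres _)
  have q2 : ∀ τ : Perm (Fin 8), Pres τ → ∀ y, (τ (τ y)).val / 4 = y.val / 4 := by
    intro τ hτ y
    have hτi : ∀ u w : Fin 8, (τ u).val / 4 = (τ w).val / 4 → u.val / 4 = w.val / 4 := by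
      intro u w e
      have := (pres_pow hτ (orderOf τ - 1) (τ u) (τ w)).2 e
      rwa [← Perm.mul_apply, ← Perm.mul_apply, ← pow_succ, Nat.sub_add_cancel (orderOf_pos τ),
        pow_orderOf_eq_one, Perm.one_apply, Perm.one_apply] at this
    by_cases e : (τ y).val / 4 = y.val / 4
    · exact ((hτ (τ y) y).2 e).trans e
    · have : (τ (τ y)).val / 4 ≠ (τ y).val / 4 := fun e' => e (hτi _ _ e')
      omega
  have p2 : ∀ τ : Perm (Fin 8), Pres τ → (∀ y, (τ y).val / 4 = y.val / 4) →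
      ∀ y, (τ (τ y)).val / 2 = y.val / 2 := by
    intro τ hτ hq y
    have hτi : ∀ u w : Fin 8, (τ u).val / 2 = (τ w).val / 2 → u.val / 2 = w.val / 2 := by
      intro u w e
      have := (pres_pow hτ (orderOf τ - 1) (τ u) (τ w)).1 e
      rwa [← Perm.mul_apply, ← Perm.mul_apply, ← pow_succ, Nat.sub_add_cancel (orderOf_pos τ),
        pow_orderOf_eq_one, Perm.one_apply, Perm.one_apply] at this
    by_cases e : (τ y).val / 2 = y.val / 2
    · exact ((hτ (τ y) y).1 e).trans e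
    · have : (τ (τ y)).val / 2 ≠ (τ y).val / 2 := fun e' => e (hτi _ _ e')
      have := hq y
      have := hq (τ y)
      omega
  have p1 : ∀ τ : Perm (Fin 8), (∀ y, (τ y).val / 2 = y.val / 2) → ∀ y, τ (τ y) = y := by
    intro τ hp y
    by_cases e : τ y = y
    · rw [e, e]
    · have : τ (τ y) ≠ τ y := fun e' => e (τ.injective e')
      have := hp y
      have := hp (τ y)
      rw [Fin.ne_iff_vne] at *
      exact Fin.ext (by omega)
  have h2 := q2 σ ha
  have h4 := p2 (σ * σ) (fun u w => ⟨fun e => (ha _ _).1 ((ha u w).1 e),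
    fun e => (ha _ _).2 ((ha u w).2 e)⟩) h2
  have h8 := p1 (σ * σ * (σ * σ)) (fun y => by simpa using h4 y) x
  show ((σ ^ (2 ^ 3)) x) = x
  rw [show (2 : ℕ) ^ 3 = 2 + 2 + (2 + 2) by norm_num, pow_add, pow_add, pow_two]
  exact h8

def a8 (σ : Perm (Fin 8)) (h : Equiv.Perm.sign σ = 1) : A8 := ⟨σ, Perm.mem_alternatingGroup.mpr h⟩

def tr1 : A8 := a8 (swap 0 1 * swap 2 3 * swap 4 5 * swap 6 7) (by decide)
def tr2 : A8 := a8 (swap 0 2 * swap 1 3 * swap 4 6 * swap 5 7) (by decide)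
def tr4 : A8 := a8 (swap 0 4 * swap 1 5 * swap 2 6 * swap 3 7) (by decide)
def ln1 : A8 := a8 (swap 2 3 * swap 6 7) (by decide)
def ln2 : A8 := a8 (swap 4 6 * swap 5 7) (by decide)

/-- A common centraliser of the five elements is `1` or `tr1`. -/
theorem centralizer_five (c : A8) (h1 : Commute c tr1) (h2 : Commute c tr2) (h4 : Commute c tr4)
    (h5 : Commute c ln1) (h6 : Commute c ln2) : c = 1 ∨ c = tr1 := by
  have key : ∀ v : Fin 8, ∀ f : Fin 8 → Fin 8, f = (fun x => if x = 0 then v else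
      if x = 1 then (tr1 : Perm (Fin 8)) v else if x = 2 then (tr2 : Perm (Fin 8)) v else
      if x = 3 then (tr2 : Perm (Fin 8)) ((tr1 : Perm (Fin 8)) v) else
      if x = 4 then (tr4 : Perm (Fin 8)) v else
      if x = 5 then (tr4 : Perm (Fin 8)) ((tr1 : Perm (Fin 8)) v) else
      if x = 6 then (tr4 : Perm (Fin 8)) ((tr2 : Perm (Fin 8)) v) else
        (tr4 : Perm (Fin 8)) ((tr2 : Perm (Fin 8)) ((tr1 : Perm (Fin 8)) v))) →
      (∀ x, f ((ln1 : Perm (Fin 8)) x) = (ln1 : Perm (Fin 8)) (f x)) →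
      (∀ x, f ((ln2 : Perm (Fin 8)) x) = (ln2 : Perm (Fin 8)) (f x)) →
      (∀ x, f x = x) ∨ (∀ x, f x = (tr1 : Perm (Fin 8)) x) := by
    intro v f hf
    subst hf
    revert v
    decide
  have hc : ∀ {g : A8}, Commute c g → ∀ x, (c : Perm (Fin 8)) ((g : Perm (Fin 8)) x) =
      (g : Perm (Fin 8)) ((c : Perm (Fin 8)) x) := fun {g} h x =>
    Equiv.congr_fun (congrArg Subtype.val h.eq) x
  have q1 : (c : Perm (Fin 8)) 1 = (tr1 : Perm (Fin 8)) ((c : Perm (Fin 8)) 0) := by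
    have h := hc h1 0
    rwa [show (tr1 : Perm (Fin 8)) 0 = 1 by decide] at h
  have q2 : (c : Perm (Fin 8)) 2 = (tr2 : Perm (Fin 8)) ((c : Perm (Fin 8)) 0) := by
    have h := hc h2 0
    rwa [show (tr2 : Perm (Fin 8)) 0 = 2 by decide] at h
  have q3 : (c : Perm (Fin 8)) 3 =
      (tr2 : Perm (Fin 8)) ((tr1 : Perm (Fin 8)) ((c : Perm (Fin 8)) 0)) := by
    have h := hc h2 1
    rwa [show (tr2 : Perm (Fin 8)) 1 = 3 by decide, q1] at h
  have q4 : (c : Perm (Fin 8)) 4 = (tr4 : Perm (Fin 8)) ((c : Perm (Fin 8)) 0) := by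
    have h := hc h4 0
    rwa [show (tr4 : Perm (Fin 8)) 0 = 4 by decide] at h
  have q5 : (c : Perm (Fin 8)) 5 =
      (tr4 : Perm (Fin 8)) ((tr1 : Perm (Fin 8)) ((c : Perm (Fin 8)) 0)) := by
    have h := hc h4 1
    rwa [show (tr4 : Perm (Fin 8)) 1 = 5 by decide, q1] at h
  have q6 : (c : Perm (Fin 8)) 6 =
      (tr4 : Perm (Fin 8)) ((tr2 : Perm (Fin 8)) ((c : Perm (Fin 8)) 0)) := by
    have h := hc h4 2
    rwa [show (tr4 : Perm (Fin 8)) 2 = 6 by decide, q2] at h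
  have q7 : (c : Perm (Fin 8)) 7 =
      (tr4 : Perm (Fin 8)) ((tr2 : Perm (Fin 8)) ((tr1 : Perm (Fin 8)) ((c : Perm (Fin 8)) 0))) := by
    have h := hc h4 3
    rwa [show (tr4 : Perm (Fin 8)) 3 = 7 by decide, q3] at h
  rcases key ((c : Perm (Fin 8)) 0) (fun x => (c : Perm (Fin 8)) x) (funext fun x => by
      fin_cases x
      exacts [rfl, q1, q2, q3, q4, q5, q6, q7]) (hc h5) (hc h6) with h | h
  · exact Or.inl (Subtype.ext (Equiv.ext h))
  · exact Or.inr (Subtype.ext (Equiv.ext h))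

theorem card_A8 : Nat.card A8 = 20160 := by
  rw [nat_card_alternatingGroup]; simp [Nat.factorial]

theorem card_sylow_A8 (P : Sylow 2 A8) : Nat.card (P : Subgroup A8) = 64 := by
  haveI : Fact (Nat.Prime 2) := ⟨Nat.prime_two⟩
  obtain ⟨k, hk⟩ := IsPGroup.iff_card.mp P.2
  have h1 := (P : Subgroup A8).card_mul_index
  rw [card_A8, hk] at h1
  have h2 := P.not_dvd_index
  have hk7 : k < 15 := by
    by_contra hle
    have h3 := Nat.pow_le_pow_right (show 0 < 2 by norm_num) (Nat.le_of_not_lt hle)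
    rcases Nat.eq_zero_or_pos (P : Subgroup A8).index with h0 | h0
    · rw [h0] at h1; omega
    · nlinarith
  rw [hk]
  interval_cases k <;> norm_num at h1 ⊢ <;> omega

theorem card_center_sylow_A8 (P : Sylow 2 A8) : Nat.card (Subgroup.center (P : Subgroup A8)) ≤ 2 := by
  haveI : Fact (Nat.Prime 2) := ⟨Nat.prime_two⟩
  obtain ⟨Q, hQ⟩ := isPGroup_blockGroup.exists_le_sylow
  obtain ⟨g, hg⟩ := MulAction.exists_smul_eq A8 Q P
  have hmem : ∀ x, x ∈ blockGroup → g * x * g⁻¹ ∈ (P : Subgroup A8) := fun x hx => by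
    rw [← hg]; exact ⟨x, hQ hx, rfl⟩
  have hgen : ∀ x ∈ [tr1, tr2, tr4, ln1, ln2], x ∈ blockGroup := by
    intro x hx
    simp only [List.mem_cons, List.not_mem_nil, or_false] at hx
    rcases hx with rfl | rfl | rfl | rfl | rfl <;> show Pres _ <;> decide
  have key : ∀ c : Subgroup.center (P : Subgroup A8),
      g⁻¹ * ((c : (P : Subgroup A8)) : A8) * g = 1 ∨ g⁻¹ * ((c : (P : Subgroup A8)) : A8) * g = tr1 := by
    intro c
    have hc : ∀ x ∈ [tr1, tr2, tr4, ln1, ln2],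
        Commute (g⁻¹ * ((c : (P : Subgroup A8)) : A8) * g) x := by
      intro x hx
      have h1 := congrArg Subtype.val
        ((Subgroup.mem_center_iff.mp c.2) ⟨_, hmem x (hgen x hx)⟩)
      simp only [Subgroup.coe_mul] at h1
      generalize ((c : (P : Subgroup A8)) : A8) = w at h1 ⊢
      show g⁻¹ * w * g * x = x * (g⁻¹ * w * g)
      calc g⁻¹ * w * g * x = g⁻¹ * (w * (g * x * g⁻¹)) * g := by group
        _ = g⁻¹ * (g * x * g⁻¹ * w) * g := by rw [h1]
        _ = x * (g⁻¹ * w * g) := by group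
    exact centralizer_five _ (hc _ (by simp)) (hc _ (by simp)) (hc _ (by simp)) (hc _ (by simp))
      (hc _ (by simp))
  calc Nat.card (Subgroup.center (P : Subgroup A8))
      ≤ Nat.card ({1, tr1} : Set A8) := Nat.card_le_card_of_injective
        (fun c => (⟨_, key c⟩ : ({1, tr1} : Set A8))) (fun a b h => by
          have h1 : g⁻¹ * _ * g = g⁻¹ * _ * g := congrArg Subtype.val h
          exact Subtype.ext (Subtype.ext (mul_left_cancel (mul_right_cancel h1))))
    _ ≤ 2 := by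
      rw [Nat.card_coe_set_eq]
      exact (Set.ncard_insert_le _ _).trans (by rw [Set.ncard_singleton])

end CfsgLib.EightType55
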